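import Cfsg.Agent.H382.RIM.HSG
import Cfsg.Agent.H382.RIM.Frame
import Cfsg.Agent.S2046

/-!
# `(HS, 5)` of S4816 (helper382)
-/

set_option autoImplicit false
set_option maxRecDepth 100000

namespace Cfsg.Agent.H382.RIM.HS

open Cfsg Cfsg.Agent.H665.RIM Cfsg.Agent.H382.RIM.HSG
open Cfsg.Agent.SporadicA.PermTab Cfsg.Agent.HN.Pres
open Cfsg.Agent.HN.HS100 (φ Q K adjA)
open Cfsg.Agent.HN.P1408 (hw iw okw eqw hw_append hw_iw ψ)
open Cfsg.Agent.HN.H0Basic (τ par mem_K_of_par not_mem_K_of_par hw_eq hw_τ τ_mem_K τ_ne_one τ_mul_τ τ_comm φ_eq_one_iff φ_eq_iff)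
open Cfsg.Agent.HN.DoubleCover (φK φK_surj)
open Cfsg.Agent.H922.Ore.Gr Cfsg.Agent.H922.Ore.HS
open Cfsg.Agent.H767.QO.HS
open Cfsg.Agent.H51.Mult (PCE)
open scoped commutatorElement

universe u

/-- an element of order 15 with `U ^ 6 = X 7` -/
def U : List ℕ := [3, 4, 3, 4, 3, 0, 2, 0, 2, 4, 2, 4, 1, 2, 4, 2, 4, 0, 2, 2, 4, 3, 4, 1, 3, 3, 0, 0, 3, 0, 4, 3, 4, 3, 1, 3, 1,
  2, 4, 2, 4, 2]

/-- `c X 19 c⁻¹ = U τ` -/
def cU : List ℕ := iw [3, 0, 4, 3, 4, 3, 1, 3, 1, 2, 4, 2, 4, 2]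

def hU : List ℕ := [4, 3, 3, 0, 4, 2, 4, 3, 4, 1, 2, 2, 4]
def gU2 : List ℕ := [4, 2, 4, 2, 4, 3, 3, 4, 3, 3, 1, 3, 1]
def gU1 : List ℕ := [2, 2, 2, 0, 3, 3, 0, 3, 1, 2, 1, 2, 2, 1, 3, 3, 3]
def h9 : List ℕ := [3, 1, 2, 2, 4, 2, 2, 1]
def g9 : List ℕ := [4, 2, 4, 2, 4, 2, 2, 4, 3, 4, 3, 4, 2, 1, 3, 1]
def wQ : List ℕ := [3, 0, 3, 0, 2, 0, 4, 2, 1, 2, 4, 1, 2, 2, 1, 2]
def aQ : List ℕ := [2, 2, 0, 2, 2, 2, 4, 2, 1, 3, 3, 4, 1, 3, 4, 3, 3, 4, 3, 0, 3, 3, 1, 2, 4, 3, 3, 3, 4, 3]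

/-- an element of `K` given by a word -/
def kw (w : List ℕ) (h : inK w = true) : K := ⟨hw w, mem_of_inK h⟩

def u : K := kw U (by decide +kernel)
def y : K := kw (X 9) (inK_X 9)
def w : K := kw wQ (by decide +kernel)
def a : K := kw aQ (by decide +kernel)

theorem conj_w {g x x' : List ℕ} (h : eqw (g ++ (x ++ iw g)) x' = true) : hw g * hw x * (hw g)⁻¹ = hw x' := by
  rw [← hw_eq h, hw_append, hw_append, hw_iw, mul_assoc]

theorem isConj_kw {g x x' : List ℕ} (hg : inK g = true) {hx : inK x = true} {hx' : inK x' = true}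
    (h : eqw (g ++ (x ++ iw g)) x' = true) : IsConj (kw x hx) (kw x' hx') :=
  isConj_iff.2 ⟨kw g hg, Subtype.ext (conj_w h)⟩

theorem kw_pow {x : List ℕ} {hx : inK x = true} {n : ℕ} {h : inK (pw x n) = true} : kw (pw x n) h = kw x hx ^ n :=
  Subtype.ext (hw_pw x n)

theorem u_pow : u ^ 15 = 1 := Subtype.ext (pow_eq (w := U) (by decide +kernel))

theorem u_five : u ^ 5 ≠ 1 := fun h =>
  pow_ne (w := U) (n := 5) (by decide +kernel) (by decide +kernel) (congrArg Subtype.val h)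

theorem u_three : u ^ 3 ≠ 1 := fun h =>
  pow_ne (w := U) (n := 3) (by decide +kernel) (by decide +kernel) (congrArg Subtype.val h)

theorem y_pow : y ^ 5 = 1 := Subtype.ext (pow_eq (w := X 9) (by decide +kernel))

theorem order_u : orderOf u = 15 := by
  refine orderOf_eq_of_pow_and_pow_div_prime (by norm_num) u_pow ?_
  intro q hq hd
  rcases hq.dvd_mul.1 (show q ∣ 3 * 5 by exact hd) with h | h
  · rw [(Nat.prime_dvd_prime_iff_eq hq Nat.prime_three).1 h]
    exact u_five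
  · rw [(Nat.prime_dvd_prime_iff_eq hq Nat.prime_five).1 h]
    exact u_three

theorem u_two : IsConj u (u ^ 2) := by
  have h2 : inK (pw U 2) = true := by decide +kernel
  have h := isConj_kw (g := gU2) (x := U) (x' := pw U 2) (by decide +kernel) (hx := by decide +kernel) (hx' := h2)
    (by decide +kernel)
  rw [kw_pow (hx := by decide +kernel)] at h
  exact h

theorem u_fourteen : IsConj u (u ^ 14) := by
  have h2 : inK (pw U 14) = true := by decide +kernel
  have h := isConj_kw (g := gU1) (x := U) (x' := pw U 14) (by decide +kernel) (hx := by decide +kernel) (hx' := h2)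
    (by decide +kernel)
  rw [kw_pow (hx := by decide +kernel)] at h
  exact h

theorem y_two : IsConj y (y ^ 2) := by
  have h2 : inK (pw (X 9) 2) = true := by decide +kernel
  have h := isConj_kw (g := g9) (x := X 9) (x' := pw (X 9) 2) (by decide +kernel) (hx := inK_X 9) (hx' := h2)
    (by decide +kernel)
  rw [kw_pow (hx := inK_X 9)] at h
  exact h

/-- `u ^ 6 = X 7` -/
theorem u_six : u ^ 6 = kw (X 7) (inK_X 7) := by
  apply Subtype.ext
  change hw U ^ 6 = hw (X 7)
  rw [← hw_pw]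
  exact hw_eq (by decide +kernel)

theorem comm_w {g x : List ℕ} (h : eqw (g ++ x) (x ++ g) = true) : hw x * hw g = hw g * hw x := by
  rw [← hw_append, ← hw_append, hw_eq h]

theorem comm_xw : Commute (u ^ 6) w := by
  rw [u_six]
  exact Subtype.ext (comm_w (g := wQ) (x := X 7) (by decide +kernel))

theorem comm_xa : Commute (u ^ 6) a := by
  rw [u_six]
  exact Subtype.ext (comm_w (g := aQ) (x := X 7) (by decide +kernel))

theorem comm_aw : ⁅a, w⁆ = τK := by
  apply Subtype.ext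
  change hw aQ * hw wQ * (hw aQ)⁻¹ * (hw wQ)⁻¹ = τ
  rw [← hw_iw, ← hw_iw, ← hw_append, ← hw_append, ← hw_append, ← hw_τ]
  exact hw_eq (by decide +kernel)

theorem bnd7 : bnd (D 7).L = 600 := by decide +kernel
theorem bnd9 : bnd (D 9).L = 50 := by decide +kernel
theorem bnd19 : bnd (D 19).L = 30 := by decide +kernel

theorem card_x : Nat.card (Subgroup.centralizer ({u ^ 6} : Set K)) ≤ 600 := by
  rw [u_six, ← bnd7]
  refine card_cent_le (i := 7) (c := 1) (h := hw hU) ?_ (not_mem_K_of_par (by decide) (by decide)) ?_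
  · rw [one_mul, inv_one, mul_one]
    rfl
  · exact conj_w (x := X 7) (by decide +kernel)

theorem card_y : Nat.card (Subgroup.centralizer ({y} : Set K)) ≤ 50 := by
  rw [← bnd9]
  refine card_cent_le (i := 9) (c := 1) (h := hw h9) ?_ (not_mem_K_of_par (by decide) (by decide)) ?_
  · rw [one_mul, inv_one, mul_one]
    rfl
  · exact conj_w (x := X 9) (by decide +kernel)

theorem card_u : Nat.card (Subgroup.centralizer ({u} : Set K)) ≤ 30 := by
  rw [← bnd19]
  refine card_cent_le (i := 19) (c := hw cU) (h := hw hU) ?_ (not_mem_K_of_par (by decide) (by decide)) ?_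
  · rw [φ_eq_iff]
    right
    rw [conj_w (x' := U ++ [0, 0]) (by decide +kernel), hw_append, hw_τ]
    rfl
  · exact conj_w (x := U) (by decide +kernel)

theorem not_conj : ¬ IsConj (u ^ 6) y := by
  rw [u_six]
  intro h
  obtain ⟨c, hc⟩ := isConj_iff.1 h
  have h1 : (7 : Fin 21) = 9 := eq_of_conj (c := (c : H0)) (congrArg (fun g : K => φ (g : H0)) hc)
  exact absurd h1 (by decide)

theorem finite_K : Finite K := inferInstance

theorem τK_comm (g : K) : g * τK = τK * g := Subtype.ext (τ_comm _)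

theorem τK_ne_one : τK ≠ 1 := fun h => τ_ne_one (congrArg Subtype.val h)

/-- **`2.HS` has a faithful irreducible character of degree divisible by 5.** -/
theorem exists_char : ∃ χ : K → ℂ, IsIrrCharacter K χ ∧ χ τK = - χ 1 ∧ 5 ∣ charDegree χ := by
  have h15 : 15 ∣ Nat.card K := by
    rw [← order_u]
    exact orderOf_dvd_natCard _
  exact Two.exists_five (z := τK) τK_comm τK_ne_one (Subtype.ext τ_mul_τ) (dvd_trans (by norm_num) h15)
    (dvd_trans (by norm_num) h15) u_pow u_five y_pow u_two u_fourteen y_two comm_xw comm_xa comm_aw not_conj card_x card_y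
    card_u F F_good F_sep

/-- **`HS`, `p = 5`** -/
theorem row {S : Type u} [Group S] (h : Spor.IsoHS S) : NBall 5 S := by
  obtain ⟨e⟩ := h
  obtain ⟨⟨f⟩, hsQ⟩ := Cfsg.Agent.HN.AutHS.nonempty_Q
  obtain ⟨χ, h1, h2, h3⟩ := exists_char
  have hs : IsSimpleGroup ↥Cfsg.Spor.HS := by
    have := hsQ
    have : Nontrivial ↥Cfsg.Spor.HS := f.symm.toEquiv.nontrivial
    exact IsSimpleGroup.isSimpleGroup_of_surjective f.toMonoidHom f.surjective
  let σ : K →* Spor.HS := f.toMonoidHom.comp φK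
  have hk : ∀ g : K, σ g = 1 ↔ g = 1 ∨ g = τK := by
    intro g
    change f (φK g) = 1 ↔ _
    rw [map_eq_one_iff f f.injective]
    have h4 : φK g = 1 ↔ φ (g : H0) = 1 := ⟨fun h => congrArg Subtype.val h, fun h => Subtype.ext h⟩
    rw [h4, φ_eq_one_iff]
    exact ⟨fun h => h.imp (fun h => Subtype.ext h) fun h => Subtype.ext h,
      fun h => h.imp (fun h => congrArg Subtype.val h) fun h => congrArg Subtype.val h⟩
  have hσ : PCE σ := by
    refine ⟨f.surjective.comp φK_surj, ?_, perfect_K⟩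
    intro g hg
    rw [MonoidHom.mem_ker, hk] at hg
    rw [Subgroup.mem_center_iff]
    rcases hg with rfl | rfl
    · intro g; rw [mul_one, one_mul]
    · exact τK_comm
  refine nball_of_two e S2046.result ?_ hσ τK_ne_one hk h1 h2 h3
  rw [Nat.card_congr Multiplicative.toAdd, Nat.card_zmod]

end Cfsg.Agent.H382.RIM.HS

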