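import Cfsg.Agent.H382.RIM.Tool
import Cfsg.Agent.H620.RIM.Div
import Cfsg.Agent.H243.RIM.DzGen
import Cfsg.Agent.H933.OZ.Cost

/-!
# `(HS, 5)` of S4816, the abstract half (helper382)

`Γ` finite, `z` central of order 2.  `u` of order 15, `x = u ^ 6` (class 5B), `y` (class 5C), columns `b = χ(x)`, `c = χ(y)`,
`t = χ(u)` over the sign of `⟨z⟩`: `2 ∣ b`, `3 ∣ b - t`, `5 ∣ b - c`; if no degree is divisible by 5 then
`150 ≤ 3 b² + 10 b t + 50 t² + 18 c² + 4 b c - 10 c t`, the total is `≤ 2100`, so there are at most 14 characters.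
-/

set_option autoImplicit false
set_option linter.unusedSectionVars false

open Cfsg Subgroup
open scoped ComplexConjugate commutatorElement

namespace Cfsg.Agent.H382.RIM.Two

open Cfsg.Agent.Characters.Core Cfsg.Agent.H622.Over Cfsg.Agent.H382.RIM

universe u

variable {Γ : Type u} [Group Γ] {z : Γ}

theorem mem_zp (hz2 : z * z = 1) {g : Γ} : g ∈ zpowers z ↔ g = 1 ∨ g = z := by
  constructor
  · intro h
    obtain ⟨k, rfl⟩ := mem_zpowers_iff.1 h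
    rcases Int.even_or_odd' k with ⟨m, rfl | rfl⟩
    · left
      rw [zpow_mul, zpow_two, hz2, one_zpow]
    · right
      rw [zpow_add, zpow_mul, zpow_two, hz2, one_zpow, one_mul, zpow_one]
  · rintro (rfl | rfl)
    · exact one_mem _
    · exact mem_zpowers _

open Classical in
/-- the sign of `⟨z⟩` -/
noncomputable def sg (hz1 : z ≠ 1) (hz2 : z * z = 1) : zpowers z →* ℂˣ where
  toFun n := if (n : Γ) = 1 then 1 else -1
  map_one' := by rw [if_pos (OneMemClass.coe_one _)]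
  map_mul' := by
    intro a b
    rcases (mem_zp hz2).1 a.2 with ha | ha <;> rcases (mem_zp hz2).1 b.2 with hb | hb
    · rw [Subgroup.coe_mul, ha, hb, mul_one, if_pos rfl, mul_one]
    · rw [Subgroup.coe_mul, ha, hb, one_mul, if_pos rfl, one_mul]
    · rw [Subgroup.coe_mul, ha, hb, mul_one, if_pos rfl, mul_one]
    · rw [Subgroup.coe_mul, ha, hb, hz2, if_pos rfl, if_neg hz1]
      norm_num

theorem sg_z (hz1 : z ≠ 1) (hz2 : z * z = 1) : sg hz1 hz2 ⟨z, mem_zpowers z⟩ = -1 := by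
  exact if_neg hz1

theorem apply_z {hz1 : z ≠ 1} {hz2 : z * z = 1} {χ : Γ → ℂ} (h : Lies (zpowers z) (sg hz1 hz2) χ) : χ z = - χ 1 := by
  have h1 := h 1 ⟨z, mem_zpowers z⟩
  rw [sg_z, one_mul] at h1
  rw [h1, Units.val_neg, Units.val_one, mul_neg, mul_one]

theorem zp_le (hz : ∀ g : Γ, g * z = z * g) : zpowers z ≤ center Γ := by
  rw [zpowers_le, mem_center_iff]
  exact hz

theorem card_zp (hz1 : z ≠ 1) (hz2 : z * z = 1) : Nat.card (zpowers z) = 2 := by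
  rw [Nat.card_zpowers]
  exact orderOf_eq_prime (by rw [sq]; exact hz2) hz1

theorem good_of (hz : ∀ g : Γ, g * z = z * g) (hz1 : z ≠ 1) (hz2 : z * z = 1) {g : Γ} (hg : ∀ h : Γ, h * g * h⁻¹ ≠ z * g) :
    Good (zpowers z) (sg hz1 hz2) g := by
  intro x hx
  rcases (mem_zp hz2).1 hx with h | h
  · have e : (⟨x⁻¹ * g⁻¹ * x * g, hx⟩ : zpowers z) = 1 := Subtype.ext h
    rw [e, map_one]
  · exfalso
    apply hg x⁻¹
    have h2 : z⁻¹ = z := inv_eq_of_mul_eq_one_left hz2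
    have h3 : x⁻¹ * g * x⁻¹⁻¹ = g * (x⁻¹ * g⁻¹ * x * g)⁻¹ := by group
    rw [h3, h, h2, hz]

variable [Finite Γ]

/-- **lower bound** -/
theorem card_ge (hz : ∀ g : Γ, g * z = z * g) (hz1 : z ≠ 1) (hz2 : z * z = 1) {n : ℕ} (F : Fin n → Γ)
    (hF : ∀ i, ∀ h : Γ, h * F i * h⁻¹ ≠ z * F i)
    (hFF : ∀ i j, i ≠ j → ∀ h : Γ, h * F i * h⁻¹ ≠ F j ∧ h * F i * h⁻¹ ≠ z * F j) [Fintype (IrrCharacter Γ)] :
    n ≤ (ov (zpowers z) (sg hz1 hz2)).card := by
  have : (zpowers z).Normal := ⟨fun n hn g => by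
    rcases (mem_zp hz2).1 hn with rfl | rfl
    · rw [mul_one, mul_inv_cancel]; exact one_mem _
    · rw [hz, mul_inv_cancel_right]; exact mem_zpowers _⟩
  rw [← card_ov]
  refine Cfsg.Agent.H243.RIM.card_lies_ge (zp_le hz) (sg hz1 hz2) F (fun i => good_of hz hz1 hz2 (hF i)) ?_
  intro i j hij x z' hz'
  rcases (mem_zp hz2).1 hz' with rfl | rfl
  · rw [mul_one]
    exact (hFF i j hij x).1
  · rw [hz]
    exact (hFF i j hij x).2

/-! ### rational elements -/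

theorem conj_pow_five {x : Γ} (hx : x ^ 5 = 1) (h2 : IsConj x (x ^ 2)) {k : ℕ} (hk : ¬ 5 ∣ k) : IsConj x (x ^ k) := by
  have e : x ^ k = x ^ (k % 5) := by
    conv_lhs => rw [← Nat.mod_add_div k 5, pow_add, pow_mul, hx, one_pow, mul_one]
  have p : ∀ {a b : Γ} (m : ℕ), IsConj a b → IsConj (a ^ m) (b ^ m) := by
    intro a b m h
    obtain ⟨c, rfl⟩ := isConj_iff.1 h
    exact isConj_iff.2 ⟨c, (conj_pow).symm⟩
  have h4 : IsConj x (x ^ 4) := by
    have := h2.trans (p 2 h2)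
    rwa [← pow_mul] at this
  have h3 : IsConj x (x ^ 3) := by
    have := h4.trans (p 4 h2)
    rw [← pow_mul] at this
    have e8 : x ^ (2 * 4) = x ^ 3 := by
      rw [show 2 * 4 = 5 + 3 by norm_num, pow_add, hx, one_mul]
    rwa [e8] at this
  rw [e]
  have h0 : k % 5 ≠ 0 := fun h => hk (Nat.dvd_of_mod_eq_zero h)
  have h5 : k % 5 < 5 := Nat.mod_lt _ (by norm_num)
  interval_cases (k % 5)
  · exact absurd rfl h0
  · rw [pow_one]
  · exact h2
  · exact h3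
  · exact h4

theorem conj_pow_fifteen {x : Γ} (hx : x ^ 15 = 1) (h2 : IsConj x (x ^ 2)) (h14 : IsConj x (x ^ 14)) {k : ℕ} (hk : ¬ 5 ∣ k)
    (hk' : ¬ 3 ∣ k) : IsConj x (x ^ k) := by
  have e' : ∀ k, x ^ k = x ^ (k % 15) := by
    intro k
    conv_lhs => rw [← Nat.mod_add_div k 15, pow_add, pow_mul, hx, one_pow, mul_one]
  have p : ∀ {a b : Γ} (m : ℕ), IsConj a b → IsConj (a ^ m) (b ^ m) := by
    intro a b m h
    obtain ⟨c, rfl⟩ := isConj_iff.1 h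
    exact isConj_iff.2 ⟨c, (conj_pow).symm⟩
  have h4 : IsConj x (x ^ 4) := by
    have := h2.trans (p 2 h2)
    rwa [← pow_mul] at this
  have h8 : IsConj x (x ^ 8) := by
    have := h4.trans (p 4 h2)
    rwa [← pow_mul] at this
  have h13 : IsConj x (x ^ 13) := by
    have := h2.trans (p 2 h14)
    rw [← pow_mul, e' (14 * 2)] at this
    exact this
  have h11 : IsConj x (x ^ 11) := by
    have := h4.trans (p 4 h14)
    rw [← pow_mul, e' (14 * 4)] at this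
    exact this
  have h7 : IsConj x (x ^ 7) := by
    have := h8.trans (p 8 h14)
    rw [← pow_mul, e' (14 * 8)] at this
    exact this
  rw [e' k]
  have h15 : k % 15 < 15 := Nat.mod_lt _ (by norm_num)
  have a5 : ¬ 5 ∣ k % 15 := by omega
  have a3 : ¬ 3 ∣ k % 15 := by omega
  generalize k % 15 = r at *
  interval_cases r
  · exact absurd (dvd_zero 5) a5
  · rw [pow_one]
  · exact h2
  · exact absurd (dvd_refl 3) a3
  · exact h4
  · exact absurd (dvd_refl 5) a5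
  · exact absurd (by norm_num : 3 ∣ 6) a3
  · exact h7
  · exact h8
  · exact absurd (by norm_num : 3 ∣ 9) a3
  · exact absurd (by norm_num : 5 ∣ 10) a5
  · exact h11
  · exact absurd (by norm_num : 3 ∣ 12) a3
  · exact h13
  · exact h14

/-! ### the form -/

theorem form_check : ∀ t ∈ Finset.Icc (-1 : ℤ) 1, ∀ c ∈ Finset.Icc (-3 : ℤ) 3, ∀ b ∈ Finset.Icc (-10 : ℤ) 10,
    2 ∣ b → 3 ∣ b - t → 5 ∣ b - c → ¬ 5 ∣ c →
      150 ≤ 3 * b ^ 2 + 10 * (b * t) + 50 * t ^ 2 + 18 * c ^ 2 + 4 * (b * c) - 10 * (c * t) := by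
  decide +kernel

theorem form_ge {b c t : ℤ} (h2 : 2 ∣ b) (h3 : 3 ∣ b - t) (h5 : 5 ∣ b - c) (hc : ¬ 5 ∣ c) :
    150 ≤ 3 * b ^ 2 + 10 * (b * t) + 50 * t ^ 2 + 18 * c ^ 2 + 4 * (b * c) - 10 * (c * t) := by
  by_contra hcon
  push Not at hcon
  have e1 : 3 * (3 * b ^ 2 + 10 * (b * t) + 50 * t ^ 2 + 18 * c ^ 2 + 4 * (b * c) - 10 * (c * t)) =
      (3 * b + 2 * c + 5 * t) ^ 2 + (50 * c ^ 2 - 50 * (c * t) + 125 * t ^ 2) := by ring
  have ht : t ^ 2 < 4 := by nlinarith [sq_nonneg (3 * b + 2 * c + 5 * t), sq_nonneg (2 * c - t)]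
  have hcc : c ^ 2 < 10 := by nlinarith [sq_nonneg (3 * b + 2 * c + 5 * t), sq_nonneg (5 * t - c)]
  have hbb : (3 * b + 2 * c + 5 * t) ^ 2 < 450 := by nlinarith [sq_nonneg (2 * c - t), sq_nonneg t]
  have ht1 : -1 ≤ t := by nlinarith
  have ht2 : t ≤ 1 := by nlinarith
  have hc1 : -3 ≤ c := by nlinarith
  have hc2 : c ≤ 3 := by nlinarith
  have hb1 : -21 ≤ 3 * b + 2 * c + 5 * t := by nlinarith
  have hb2 : 3 * b + 2 * c + 5 * t ≤ 21 := by nlinarith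
  have := form_check t (Finset.mem_Icc.2 ⟨ht1, ht2⟩) c (Finset.mem_Icc.2 ⟨hc1, hc2⟩) b
    (Finset.mem_Icc.2 ⟨by omega, by omega⟩) h2 h3 h5 hc
  omega

/-! ### the main argument -/

theorem pow_isConj {g h : Γ} {m : ℕ} (hz : ∀ g : Γ, g * z = z * g) (hz2 : z * z = 1) (hm : g ^ m = 1) {n : zpowers z}
    (hodd : Odd m) (h1 : IsConj (g * n) h) : h ^ m = n := by
  obtain ⟨c, rfl⟩ := isConj_iff.1 h1
  have hn : ∀ y : Γ, y * n = n * y := fun y => mem_center_iff.1 (zp_le hz n.2) y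
  have hc : Commute g (n : Γ) := hn g
  have h2 : (n : Γ) ^ m = n := by
    obtain ⟨k, rfl⟩ := hodd
    have h3 : (n : Γ) * n = 1 := by
      rcases (mem_zp hz2).1 n.2 with h4 | h4
      · rw [h4, one_mul]
      · rw [h4, hz2]
    rw [pow_succ, pow_mul, pow_two, h3, one_pow, one_mul]
  rw [conj_pow, hc.mul_pow, hm, one_mul, h2, hn c, mul_inv_cancel_right]

theorem exists_five (hz : ∀ g : Γ, g * z = z * g) (hz1 : z ≠ 1) (hz2 : z * z = 1)
    (h3 : 3 ∣ Nat.card Γ) (h5 : 5 ∣ Nat.card Γ)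
    {u y w a : Γ} (hu : u ^ 15 = 1) (hu5 : u ^ 5 ≠ 1) (hy : y ^ 5 = 1) (hur : IsConj u (u ^ 2)) (hui : IsConj u (u ^ 14))
    (hyr : IsConj y (y ^ 2)) (hwx : Commute (u ^ 6) w) (hax : Commute (u ^ 6) a) (haw : ⁅a, w⁆ = z)
    (hxy : ¬ IsConj (u ^ 6) y)
    (cx : Nat.card (centralizer ({u ^ 6} : Set Γ)) ≤ 600) (cy : Nat.card (centralizer ({y} : Set Γ)) ≤ 50)
    (cu : Nat.card (centralizer ({u} : Set Γ)) ≤ 30)
    (F : Fin 15 → Γ) (hF : ∀ i, ∀ h : Γ, h * F i * h⁻¹ ≠ z * F i)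
    (hFF : ∀ i j, i ≠ j → ∀ h : Γ, h * F i * h⁻¹ ≠ F j ∧ h * F i * h⁻¹ ≠ z * F j) :
    ∃ χ : Γ → ℂ, IsIrrCharacter Γ χ ∧ χ z = - χ 1 ∧ 5 ∣ charDegree χ := by
  classical
  by_contra hcon
  have := finite_irr (G := Γ)
  have := Fintype.ofFinite (IrrCharacter Γ)
  have := Fintype.ofFinite (zpowers z)
  have hN := zp_le hz
  have hk := card_ge hz hz1 hz2 F hF hFF
  obtain ⟨c, hcdef⟩ : ∃ c : zpowers z →* ℂˣ, c = sg hz1 hz2 := ⟨_, rfl⟩
  rw [← hcdef] at hk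
  have hc2 : Nat.card (zpowers z) = 2 := card_zp hz1 hz2
  have hS : ∀ χ : IrrCharacter Γ, Lies (zpowers z) c (χ : Γ → ℂ) → ¬ 5 ∣ charDegree (χ : Γ → ℂ) := by
    intro χ hχ hd
    subst hcdef
    exact hcon ⟨χ, χ.2, apply_z hχ, hd⟩
  obtain ⟨x, hxdef⟩ : ∃ x, x = u ^ 6 := ⟨_, rfl⟩
  rw [← hxdef] at hwx hax hxy cx
  have hx : x ^ 5 = 1 := by
    rw [hxdef, ← pow_mul, show 6 * 5 = 15 * 2 by norm_num, pow_mul, hu, one_pow]
  have hxr : IsConj x (x ^ 2) := by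
    obtain ⟨g, hg⟩ := isConj_iff.1 hur
    refine isConj_iff.2 ⟨g, ?_⟩
    rw [hxdef, ← conj_pow, hg, ← pow_mul, ← pow_mul]
  -- coprimality
  have n5 : ∀ k : ℕ, k.Coprime (Nat.card Γ) → ¬ 5 ∣ k := by
    intro k hk hd
    have := Nat.eq_one_of_dvd_coprimes hk hd h5
    omega
  have n3 : ∀ k : ℕ, k.Coprime (Nat.card Γ) → ¬ 3 ∣ k := by
    intro k hk hd
    have := Nat.eq_one_of_dvd_coprimes hk hd h3
    omega
  -- the columns
  have ib : ∀ χ : IrrCharacter Γ, ∃ b : ℤ, (χ : Γ → ℂ) x = b := fun χ =>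
    Cfsg.Agent.H933.OZ.exists_int_of_conj χ fun k hk => conj_pow_five hx hxr (n5 k hk)
  have ic : ∀ χ : IrrCharacter Γ, ∃ b : ℤ, (χ : Γ → ℂ) y = b := fun χ =>
    Cfsg.Agent.H933.OZ.exists_int_of_conj χ fun k hk => conj_pow_five hy hyr (n5 k hk)
  have it : ∀ χ : IrrCharacter Γ, ∃ b : ℤ, (χ : Γ → ℂ) u = b := fun χ =>
    Cfsg.Agent.H933.OZ.exists_int_of_conj χ fun k hk => conj_pow_fifteen hu hur hui (n5 k hk) (n3 k hk)
  choose b hb using ib
  choose d hd using ic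
  choose t ht using it
  have hform : ∀ χ ∈ ov (zpowers z) c, (150 : ℤ) ≤ 3 * b χ ^ 2 + 10 * (b χ * t χ) + 50 * t χ ^ 2 + 18 * d χ ^ 2 +
      4 * (b χ * d χ) - 10 * (d χ * t χ) := by
    intro χ hχ
    rw [mem_ov] at hχ
    have e5b := Cfsg.Agent.H933.OZ.dvd_sub_deg Nat.prime_five χ (g := x) (k := 1) (by rw [pow_one]; exact hx) (hb χ)
    have e5d := Cfsg.Agent.H933.OZ.dvd_sub_deg Nat.prime_five χ (g := y) (k := 1) (by rw [pow_one]; exact hy) (hd χ)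
    have e3 := Cfsg.Agent.H933.OZ.dvd_sub_int Nat.prime_three χ (g := u) (s := x) (j := 6) (k := 1) hxdef.symm (by
      rw [pow_one, hxdef, ← pow_mul, show 6 * 3 = 15 + 3 by norm_num, pow_add, hu, one_mul]) (ht χ) (hb χ)
    have e2 : (2 : ℤ) ∣ b χ := by
      obtain ⟨α, hα, e⟩ := Cfsg.Agent.H620.RIM.exists_integral hN χ.2 hχ hax hwx (z := ⟨z, mem_zpowers z⟩) haw
      have ho : orderOf (c ⟨z, mem_zpowers z⟩) = 2 := by
        rw [hcdef, sg_z]
        refine orderOf_eq_prime (by norm_num) ?_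
        intro h
        have h1 := congrArg Units.val h
        rw [Units.val_neg, Units.val_one] at h1
        norm_num at h1
      rw [ho, hb χ] at e
      have h1 : (b χ : ℂ) / 2 = α := by
        rw [e]
        push_cast
        ring
      have h2 : IsIntegral ℤ ((b χ : ℂ) / 2) := by rw [h1]; exact hα
      obtain ⟨m, hm⟩ := Cfsg.Agent.Characters.GaloisBasic.exists_int_of_isIntegral h2 ⟨(b χ : ℚ) / 2, by push_cast; rfl⟩
      refine ⟨m, ?_⟩
      have h3 : (b χ : ℂ) = 2 * m := by rw [← hm]; ring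
      exact_mod_cast h3
    have hdeg : ¬ (5 : ℤ) ∣ (charDegree (χ : Γ → ℂ) : ℤ) := by
      intro h
      exact hS χ hχ (by exact_mod_cast h)
    refine form_ge e2 ?_ ?_ ?_
    · rw [← dvd_neg, neg_sub]; exact e3
    · have := dvd_sub e5b e5d
      have e : b χ - (charDegree (χ : Γ → ℂ) : ℤ) - (d χ - (charDegree (χ : Γ → ℂ) : ℤ)) = b χ - d χ := by ring
      rwa [e] at this
    · intro h
      apply hdeg
      have := dvd_sub h e5d
      have e : d χ - (d χ - (charDegree (χ : Γ → ℂ) : ℤ)) = (charDegree (χ : Γ → ℂ) : ℤ) := by ring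
      rwa [e] at this
  -- the squares
  have sq_le : ∀ {g : Γ} {m : ℕ} (_ : g ^ m = 1) (_ : Odd m) {f : IrrCharacter Γ → ℤ} (_ : ∀ χ : IrrCharacter Γ, (χ : Γ → ℂ) g = f χ) {B : ℕ}
      (_ : Nat.card (centralizer ({g} : Set Γ)) ≤ 2 * B), ∑ χ ∈ ov (zpowers z) c, f χ ^ 2 ≤ (B : ℤ) := by
    intro g m hg hm f hf B hB
    have h1 := sum_normSq_over hN c g (fun n hn => eq_one_of_isConj hN hg (by
      rw [hc2]; exact Nat.coprime_two_right.2 hm) hn)
    have h2 : ∑ χ ∈ ov (zpowers z) c, ‖(χ : Γ → ℂ) g‖ ^ 2 = ((∑ χ ∈ ov (zpowers z) c, f χ ^ 2 : ℤ) : ℝ) := by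
      push_cast
      refine Finset.sum_congr rfl fun χ _ => ?_
      rw [hf χ, Complex.norm_intCast, sq_abs]
    rw [h2, hc2] at h1
    have h3 : (2 : ℤ) * (∑ χ ∈ ov (zpowers z) c, f χ ^ 2) = (Nat.card (centralizer ({g} : Set Γ)) : ℤ) := by
      exact_mod_cast h1
    have h4 : (Nat.card (centralizer ({g} : Set Γ)) : ℤ) ≤ 2 * B := by exact_mod_cast hB
    linarith
  have s1 := sq_le (m := 5) hx (by decide) hb (B := 300) cx
  have s2 := sq_le (m := 5) hy (by decide) hd (B := 25) cy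
  have s3 := sq_le (m := 15) hu (by decide) ht (B := 15) cu
  -- orthogonality
  have orth : ∀ {g h : Γ} (_ : ∀ n : zpowers z, ¬ IsConj (g * n) h) {f f' : IrrCharacter Γ → ℤ}
      (_ : ∀ χ : IrrCharacter Γ, (χ : Γ → ℂ) g = f χ) (_ : ∀ χ : IrrCharacter Γ, (χ : Γ → ℂ) h = f' χ), ∑ χ ∈ ov (zpowers z) c, f χ * f' χ = 0 := by
    intro g h hgh f f' hf hf'
    have h1 := sum_over hN c g h
    rw [Finset.sum_eq_zero (s := Finset.univ) (fun n _ => by rw [if_neg (hgh n), mul_zero]), mul_zero] at h1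
    have h2 : ∑ χ ∈ ov (zpowers z) c, (χ : Γ → ℂ) g * conj ((χ : Γ → ℂ) h) =
        ((∑ χ ∈ ov (zpowers z) c, f χ * f' χ : ℤ) : ℂ) := by
      push_cast
      refine Finset.sum_congr rfl fun χ _ => ?_
      rw [hf χ, hf' χ, map_intCast]
    rw [h2] at h1
    exact_mod_cast h1
  have ne_u : ∀ {g : Γ} (_ : g ^ 5 = 1) (n : zpowers z), ¬ IsConj (g * n) u := by
    intro g hg n hc
    have h1 := pow_isConj hz hz2 hg (by decide) hc
    rcases (mem_zp hz2).1 n.2 with h2 | h2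
    · exact hu5 (h1.trans h2)
    · have h4 : u ^ 15 = z := by
        rw [show 15 = 5 * 3 by norm_num, pow_mul, h1, h2, pow_succ, pow_two, hz2, one_mul]
      exact hz1 (h4.symm.trans hu)
  have o1 := orth (ne_u hx) hb ht
  have o2 := orth (ne_u hy) hd ht
  have o3 := orth (g := x) (h := y) (fun n hc => by
    have h1 := pow_isConj hz hz2 hx (by decide) hc
    rw [hy] at h1
    rw [← h1, mul_one] at hc
    exact hxy hc) hb hd
  have tot : ∑ χ ∈ ov (zpowers z) c, (3 * b χ ^ 2 + 10 * (b χ * t χ) + 50 * t χ ^ 2 + 18 * d χ ^ 2 +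
      4 * (b χ * d χ) - 10 * (d χ * t χ)) = 3 * ∑ χ ∈ ov (zpowers z) c, b χ ^ 2 + 10 * ∑ χ ∈ ov (zpowers z) c, b χ * t χ +
      50 * ∑ χ ∈ ov (zpowers z) c, t χ ^ 2 + 18 * ∑ χ ∈ ov (zpowers z) c, d χ ^ 2 +
      4 * ∑ χ ∈ ov (zpowers z) c, b χ * d χ - 10 * ∑ χ ∈ ov (zpowers z) c, d χ * t χ := by
    rw [Finset.sum_sub_distrib, Finset.sum_add_distrib, Finset.sum_add_distrib, Finset.sum_add_distrib,
      Finset.sum_add_distrib, Finset.mul_sum, Finset.mul_sum, Finset.mul_sum, Finset.mul_sum, Finset.mul_sum,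
      Finset.mul_sum]
  have low := Finset.sum_le_sum hform
  rw [tot, o1, o2, o3, Finset.sum_const, nsmul_eq_mul] at low
  have hk' : (15 : ℤ) ≤ ((ov (zpowers z) c).card : ℤ) := by exact_mod_cast hk
  push_cast at s1 s2 s3
  linarith

end Cfsg.Agent.H382.RIM.Two
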