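import Cfsg.Agent.H767.QO.HS
import Cfsg.Agent.H382.RIM.HSAbs

/-!
# `(HS, 5)` of S4816: the facts on `K = 2.HS` (helper382)

helper767's model: `K ≤ H0 = 2.HS.2`, words in `x, x⁻¹, y, y⁻¹, z` (`0 .. 4`), the 21 classes `X i` of `HS:2` in `HS`.
* `card_GG_le` : the elements of `H0` centralizing `X i` modulo `τ`;
* `good_*` : no `h ∈ K` with `h X h⁻¹ = τ X`;
* `sep` : the 15 elements are not conjugate modulo `τ`.
-/

set_option autoImplicit false
set_option maxRecDepth 100000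

namespace Cfsg.Agent.H382.RIM.HSG

open Cfsg.Agent.SporadicA.PermTab Cfsg.Agent.HN.Pres
open Cfsg.Agent.HN.HS100 (φ Q K adjA)
open Cfsg.Agent.HN.P1408 (hw iw okw eqw hw_append hw_iw ψ)
open Cfsg.Agent.HN.H0Basic (τ par mem_K_of_par not_mem_K_of_par hw_eq hw_τ τ_mem_K τ_ne_one τ_mul_τ τ_comm φ_eq_one_iff φ_eq_iff)
open Cfsg.Agent.H922.Ore.Gr Cfsg.Agent.H922.Ore.HS
open Cfsg.Agent.H767.QO.HS
open Equiv

/-! ### general lemmas -/

theorem two_mul_card_le {G : Type*} [Group G] {A B : Subgroup G} [Finite B] (hAB : A ≤ B) (h : ∃ x ∈ B, x ∉ A) :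
    2 * Nat.card A ≤ Nat.card B := by
  have hfin : Finite A := Finite.of_injective _ (Subgroup.inclusion_injective hAB)
  obtain ⟨k, hk⟩ := Subgroup.card_dvd_of_le hAB
  have hB : 0 < Nat.card B := Nat.card_pos
  have h2 : 2 ≤ k := by
    by_contra hcon
    have h3 : k = 0 ∨ k = 1 := by omega
    rcases h3 with rfl | rfl
    · omega
    · obtain ⟨x, hx, hx'⟩ := h
      apply hx'
      rw [Subgroup.eq_of_le_of_card_ge hAB (by rw [hk, mul_one])]
      exact hx
  rw [hk, mul_comm]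
  exact Nat.mul_le_mul_left _ h2

theorem not_mem_zpowers {G : Type*} [Group G] [Finite G] {x t : G} {m : ℕ} (ho : orderOf x = 2 * m) (ht : t * t = 1)
    (h1 : t ≠ 1) (hne : x ^ m ≠ t) : t ∉ Subgroup.zpowers x := by
  intro h
  obtain ⟨k, rfl⟩ := (mem_powers_iff_mem_zpowers (G := G)).2 h
  change x ^ k * x ^ k = 1 at ht
  change x ^ k ≠ 1 at h1
  change x ^ m ≠ x ^ k at hne
  rw [← pow_add] at ht
  have h2 : 2 * m ∣ k + k := by rw [← ho]; exact orderOf_dvd_of_pow_eq_one ht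
  have h3 : m ∣ k := by
    obtain ⟨j, hj⟩ := h2
    have h4 : k = m * j := by
      have h5 : 2 * k = 2 * (m * j) := by rw [← mul_assoc, ← hj]; ring
      omega
    exact ⟨j, h4⟩
  obtain ⟨j, rfl⟩ := h3
  rcases Nat.even_or_odd' j with ⟨i, rfl | rfl⟩
  · apply h1
    rw [show m * (2 * i) = 2 * m * i by ring, pow_mul, ← ho, pow_orderOf_eq_one, one_pow]
  · apply hne
    rw [show m * (2 * i + 1) = 2 * m * i + m by ring, pow_add, pow_mul, ← ho, pow_orderOf_eq_one, one_pow, one_mul]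

/-! ### the representatives -/

/-- the words -/
def X (i : Fin 21) : List ℕ := cw (wa i).1 (wa i).2

theorem inK_X : ∀ i, inK (X i) = true := by
  intro i
  fin_cases i <;> decide +kernel

theorem mem_X (i : Fin 21) : hw (X i) ∈ K := mem_of_inK (inK_X i)

/-- the elements centralizing `g` modulo `τ` -/
def GG (g : H0) : Subgroup H0 := (Subgroup.centralizer ({φ g} : Set (Perm (Fin 100)))).comap φ

theorem mem_GG {g h : H0} : h ∈ GG g ↔ h * g * h⁻¹ = g ∨ h * g * h⁻¹ = g * τ := by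
  unfold GG
  rw [Subgroup.mem_comap, Subgroup.mem_centralizer_singleton_iff, ← φ_eq_iff, map_mul, map_mul, map_inv,
    mul_inv_eq_iff_eq_mul]

theorem card_ker : Nat.card (φ.rangeRestrict).ker = 2 := by
  have h1 : ((φ.rangeRestrict).ker : Set H0) = {1, τ} := by
    ext g
    rw [SetLike.mem_coe, MonoidHom.mem_ker, Set.mem_insert_iff, Set.mem_singleton_iff, ← φ_eq_one_iff]
    exact ⟨fun h => congrArg Subtype.val h, fun h => Subtype.ext h⟩
  have h2 : Nat.card (φ.rangeRestrict).ker = ((φ.rangeRestrict).ker : Set H0).ncard := rfl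
  rw [h2, h1, Set.ncard_pair τ_ne_one.symm]

theorem card_GG_eq (g : H0) :
    Nat.card (GG g) = Nat.card (Subgroup.centralizer ({φ g} : Set (Perm (Fin 100))) ⊓ φ.range : Subgroup _) * 2 := by
  have h1 : GG g = ((Subgroup.centralizer ({φ g} : Set (Perm (Fin 100)))).subgroupOf φ.range).comap φ.rangeRestrict := by
    ext x
    rfl
  rw [h1, Cfsg.Agent.H620.RIM.card_comap_surj _ φ.rangeRestrict_surjective, card_ker]
  congr 1
  rw [← Subgroup.subgroupOf_map_subtype]
  exact Nat.card_congr (Subgroup.equivMapOfInjective _ _ φ.range.subtype_injective).toEquiv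

theorem card_GG_X (i : Fin 21) : Nat.card (GG (hw (X i))) ≤ bnd (D i).L * 2 := by
  rw [card_GG_eq]
  refine Nat.mul_le_mul_right _ ?_
  have h := chk_all i
  simp only [Cls.chk, Bool.and_eq_true] at h
  refine card_le_of_chC (acts i) (D i).m (D i).k (D i).L _ [] ?_ ?_ ?_ h.2.1
  · rintro c ⟨-, hc⟩
    exact Cfsg.Agent.HN.HS100.range_le hc
  · rintro c ⟨hc, -⟩ j
    have h1 := Subgroup.mem_centralizer_singleton_iff.1 hc
    exact congrArg (fun z : Perm (Fin 100) => z j) h1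
  · intro c _ f hf
    exact absurd hf List.not_mem_nil

/-- conjugate elements -/
theorem card_GG_le {i : Fin 21} {g c : H0} (hc : φ (c * hw (X i) * c⁻¹) = φ g) : Nat.card (GG g) ≤ bnd (D i).L * 2 := by
  have h1 : GG g = (GG (hw (X i))).map (MulAut.conj c).toMonoidHom := by
    ext h
    rw [Subgroup.mem_map_equiv]
    change _ ↔ (MulAut.conj c)⁻¹ h ∈ _
    unfold GG
    rw [Subgroup.mem_comap, Subgroup.mem_comap, MulAut.conj_inv_apply, Subgroup.mem_centralizer_singleton_iff,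
      Subgroup.mem_centralizer_singleton_iff, ← hc, map_mul, map_mul, map_mul, map_mul, map_inv]
    constructor
    · intro e
      calc (φ c)⁻¹ * φ h * φ c * φ (hw (X i)) = (φ c)⁻¹ * (φ h * (φ c * φ (hw (X i)) * (φ c)⁻¹)) * φ c := by group
        _ = _ := by rw [e]; group
    · intro e
      calc φ h * (φ c * φ (hw (X i)) * (φ c)⁻¹) = φ c * ((φ c)⁻¹ * φ h * φ c * φ (hw (X i))) * (φ c)⁻¹ := by group
        _ = _ := by rw [e]; group
  rw [h1, ← Nat.card_congr (Subgroup.equivMapOfInjective _ _ (MulAut.conj c).injective).toEquiv]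
  exact card_GG_X i

/-- **centralizers in `K`** -/
theorem card_cent_le {i : Fin 21} {g : K} {c h : H0} (hc : φ (c * hw (X i) * c⁻¹) = φ (g : H0)) (hh : h ∉ K)
    (hg : h * (g : H0) * h⁻¹ = g) : Nat.card (Subgroup.centralizer ({g} : Set K)) ≤ bnd (D i).L := by
  have h1 : Nat.card (Subgroup.centralizer ({g} : Set K)) =
      Nat.card ((Subgroup.centralizer ({g} : Set K)).map K.subtype) :=
    Nat.card_congr (Subgroup.equivMapOfInjective _ _ K.subtype_injective).toEquiv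
  have h2 : (Subgroup.centralizer ({g} : Set K)).map K.subtype ≤ GG g := by
    rintro _ ⟨k, hk, rfl⟩
    rw [mem_GG]
    left
    have h3 := Subgroup.mem_centralizer_singleton_iff.1 hk
    have h4 : (k : H0) * g = g * k := congrArg Subtype.val h3
    change (k : H0) * g * (k : H0)⁻¹ = g
    rw [h4, mul_inv_cancel_right]
  have h3 := two_mul_card_le h2 ⟨h, mem_GG.2 (Or.inl hg), by
    rintro ⟨k, -, rfl⟩
    exact hh k.2⟩
  have h4 := card_GG_le hc
  rw [h1]
  omega

/-! ### good elements -/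

theorem τ_pow {m : ℕ} (hm : Odd m) : τ ^ m = τ := by
  obtain ⟨k, rfl⟩ := hm
  rw [pow_succ, pow_mul, pow_two, τ_mul_τ, one_pow, one_mul]

/-- odd order modulo `τ` -/
theorem good_odd {g : H0} {m : ℕ} (hm : Odd m) (h : g ^ m = 1 ∨ g ^ m = τ) (c : H0) : c * g * c⁻¹ ≠ τ * g := by
  intro e
  have hc : Commute τ g := (τ_comm g).symm
  have h1 : (τ * g) ^ m = c * g ^ m * c⁻¹ := by rw [← e, conj_pow]
  rw [hc.mul_pow, τ_pow hm] at h1
  have h3 : c * g ^ m * c⁻¹ = g ^ m := by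
    rcases h with h | h
    · rw [h, mul_one, mul_inv_cancel]
    · rw [h, τ_comm, mul_inv_cancel_right]
  rw [h3] at h1
  exact τ_ne_one (mul_eq_right.1 h1)

theorem card_fix_conj {n : ℕ} (g c : Perm (Fin n)) :
    ((Finset.univ : Finset (Fin n)).filter fun i => (c * g * c⁻¹) i = i).card =
      ((Finset.univ : Finset (Fin n)).filter fun i => g i = i).card := by
  symm
  refine Finset.card_bij (fun i _ => c i) ?_ (fun i _ j _ hij => c.injective hij) ?_
  · intro i hi
    rw [Finset.mem_filter] at hi ⊢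
    refine ⟨Finset.mem_univ _, ?_⟩
    have e : c⁻¹ (c i) = i := by simp
    rw [Perm.mul_apply, Perm.mul_apply, e, hi.2]
  · intro j hj
    rw [Finset.mem_filter] at hj
    refine ⟨c⁻¹ j, ?_, by simp⟩
    rw [Finset.mem_filter]
    refine ⟨Finset.mem_univ _, ?_⟩
    have h1 := hj.2
    rw [Perm.mul_apply, Perm.mul_apply] at h1
    exact (Perm.eq_inv_iff_eq (f := c)).2 h1

theorem card_fix_hw {w : List ℕ} (ha : okw w = true) {v : ℕ}
    (h : cntB (fun p => Nat.beq (Cfsg.Agent.HN.P1408.tr w p) p) 1408 v = true) :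
    ((Finset.univ : Finset (Fin 1408)).filter fun i => (ψ (hw w))⁻¹ i = i).card = v := by
  rw [← card_fin_of_cntB _ 1408 v h]
  congr 1
  apply Finset.filter_congr
  intro i _
  rw [← Cfsg.Agent.HN.P1408.ψ_hw_inv_apply ha]
  constructor
  · intro h1
    rw [h1]
    exact Nat.beq_refl _
  · intro h1
    exact Fin.ext (Nat.eq_of_beq_eq_true h1)

/-- the signed trace -/
theorem good_tr {w : List ℕ} (ha : okw w = true) {v v' : ℕ}
    (h1 : cntB (fun p => Nat.beq (Cfsg.Agent.HN.P1408.tr w p) p) 1408 v = true)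
    (h2 : cntB (fun p => Nat.beq (Cfsg.Agent.HN.P1408.tr (0 :: 0 :: w) p) p) 1408 v' = true) (hne : v ≠ v') (c : H0) :
    c * hw w * c⁻¹ ≠ τ * hw w := by
  intro e
  have e1 : τ * hw w = hw (0 :: 0 :: w) := by
    rw [← hw_τ, ← hw_append]
    rfl
  have ha' : okw (0 :: 0 :: w) = true := Cfsg.Agent.HN.H0Basic.okw_append (a := [0, 0]) rfl ha
  apply hne
  rw [← card_fix_hw ha h1, ← card_fix_hw ha' h2, ← e1, ← e, map_mul, map_mul, map_inv]
  have h3 : (ψ c * ψ (hw w) * (ψ c)⁻¹)⁻¹ = ψ c * (ψ (hw w))⁻¹ * (ψ c)⁻¹ := by group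
  rw [h3, card_fix_conj]

/-- the elements of `K` commuting with `g` -/
def CK' (g : H0) : Subgroup H0 := Subgroup.centralizer ({g} : Set H0) ⊓ K

theorem mem_CK' {g h : H0} : h ∈ CK' g ↔ h * g = g * h ∧ h ∈ K := by
  unfold CK'
  rw [Subgroup.mem_inf, Subgroup.mem_centralizer_singleton_iff]

theorem CK'_le (g : H0) : CK' g ≤ GG g ⊓ K := by
  intro h hh
  rw [mem_CK'] at hh
  refine ⟨mem_GG.2 (Or.inl ?_), hh.2⟩
  rw [hh.1, mul_inv_cancel_right]

theorem zp_le_CK' {g : H0} (hg : g ∈ K) : Subgroup.zpowers g ≤ CK' g := by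
  rw [Subgroup.zpowers_le, mem_CK']
  exact ⟨rfl, hg⟩

theorem two_le {g : H0} (hg : g ∈ K) {m : ℕ} (ho : orderOf g = 2 * m) (hne : g ^ m ≠ τ) :
    2 * (2 * m) ≤ Nat.card (CK' g) := by
  rw [← ho, ← Nat.card_zpowers]
  refine two_mul_card_le (zp_le_CK' hg) ⟨τ, ?_, not_mem_zpowers ho τ_mul_τ τ_ne_one hne⟩
  rw [mem_CK']
  exact ⟨(τ_comm g).symm, τ_mem_K⟩

/-- the centralizer modulo `τ` is small -/
theorem good_cent {g : H0} {n : ℕ} (hn : n ≤ Nat.card (CK' g)) (hlt : Nat.card (GG g ⊓ K : Subgroup H0) < 2 * n) {c : H0}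
    (hc : c ∈ K) : c * g * c⁻¹ ≠ τ * g := by
  intro e
  have h1 := two_mul_card_le (CK'_le g) ⟨c, ⟨mem_GG.2 (Or.inr (by rw [e, τ_comm])), hc⟩, by
    intro h
    rw [mem_CK'] at h
    rw [h.1, mul_inv_cancel_right] at e
    exact τ_ne_one (mul_eq_right.1 e.symm)⟩
  omega

theorem inf_le {g : H0} {N : ℕ} (hN : Nat.card (GG g) ≤ N) (h : ∃ c ∈ GG g, c ∉ K) :
    2 * Nat.card (GG g ⊓ K : Subgroup H0) ≤ N := by
  obtain ⟨c, hc, hc'⟩ := h
  exact (two_mul_card_le inf_le_left ⟨c, hc, fun h => hc' h.2⟩).trans hN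

theorem mem_K_of_GG {g : H0} {n N : ℕ} (hn : n ≤ Nat.card (CK' g)) (hN : Nat.card (GG g) ≤ N) (hlt : N < 2 * n) {c : H0}
    (hc : c ∈ GG g) : c ∈ K := by
  by_contra hcon
  have h1 := inf_le hN ⟨c, hc, hcon⟩
  have h2 := Subgroup.card_le_of_le (CK'_le g)
  omega

/-! ### words -/

/-- powers of words -/
def pw (w : List ℕ) : ℕ → List ℕ
  | 0 => []
  | n + 1 => pw w n ++ w

theorem hw_pw (w : List ℕ) (n : ℕ) : hw (pw w n) = hw w ^ n := by
  induction n with
  | zero => rw [pow_zero]; rfl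
  | succ n ih => rw [pw, hw_append, ih, pow_succ]

theorem ne_of {a b : List ℕ} (ha : okw a = true) (hb : okw b = true) (h : eqw a b = false) : hw a ≠ hw b := by
  intro h1
  have h2 := Cfsg.Agent.HN.H0Basic.eqw_of_hw_eq ha hb h1
  rw [h] at h2
  exact Bool.false_ne_true h2

theorem pow_eq {w : List ℕ} {n : ℕ} (h : eqw (pw w n) [] = true) : hw w ^ n = 1 := by
  rw [← hw_pw, hw_eq h]
  rfl

theorem pow_eq_τ {w : List ℕ} {n : ℕ} (h : eqw (pw w n) [0, 0] = true) : hw w ^ n = τ := by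
  rw [← hw_pw, hw_eq h, hw_τ]

theorem pow_ne {w : List ℕ} {n : ℕ} (ha : okw (pw w n) = true) (h : eqw (pw w n) [] = false) : hw w ^ n ≠ 1 := by
  rw [← hw_pw]
  exact ne_of ha rfl h

theorem pow_ne_τ {w : List ℕ} {n : ℕ} (ha : okw (pw w n) = true) (h : eqw (pw w n) [0, 0] = false) : hw w ^ n ≠ τ := by
  rw [← hw_pw, ← hw_τ]
  exact ne_of ha rfl h

theorem ord_two_mul {w : List ℕ} {m p : ℕ} (hp : p.Prime) (hm : ∀ q : ℕ, q.Prime → q ∣ 2 * m → q = 2 ∨ q = p) (h0 : 0 < m)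
    (h1 : hw w ^ (2 * m) = 1)
    (h2 : hw w ^ m ≠ 1) (h3 : hw w ^ (2 * m / p) ≠ 1) : orderOf (hw w) = 2 * m := by
  refine orderOf_eq_of_pow_and_pow_div_prime (by omega) h1 ?_
  intro q hq hd
  rcases hm q hq hd with rfl | rfl
  · rwa [Nat.mul_div_cancel_left _ (by norm_num)]
  · exact h3

theorem ord17 : orderOf (hw (X 17)) = 2 * 11 := by
  refine ord_two_mul (p := 11) (by norm_num) ?_ (by norm_num) (pow_eq (by decide +kernel))
    (pow_ne (by decide +kernel) (by decide +kernel)) (pow_ne (by decide +kernel) (by decide +kernel))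
  intro q hq hd
  rcases hq.dvd_mul.1 hd with h | h
  · exact Or.inl ((Nat.prime_dvd_prime_iff_eq hq Nat.prime_two).1 h)
  · exact Or.inr ((Nat.prime_dvd_prime_iff_eq hq (by norm_num)).1 h)

theorem ord18 : orderOf (hw (X 18)) = 2 * 6 := by
  refine ord_two_mul (p := 3) (by norm_num) ?_ (by norm_num) (pow_eq (by decide +kernel))
    (pow_ne (by decide +kernel) (by decide +kernel)) (pow_ne (by decide +kernel) (by decide +kernel))
  intro q hq hd
  rcases hq.dvd_mul.1 (show q ∣ 2 ^ 2 * 3 by exact hd) with h | h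
  · exact Or.inl ((Nat.prime_dvd_prime_iff_eq hq Nat.prime_two).1 (hq.dvd_of_dvd_pow h))
  · exact Or.inr ((Nat.prime_dvd_prime_iff_eq hq (by norm_num)).1 h)

theorem ord20 : orderOf (hw (X 20)) = 2 * 10 := by
  refine ord_two_mul (p := 5) (by norm_num) ?_ (by norm_num) (pow_eq (by decide +kernel))
    (pow_ne (by decide +kernel) (by decide +kernel)) (pow_ne (by decide +kernel) (by decide +kernel))
  intro q hq hd
  rcases hq.dvd_mul.1 (show q ∣ 2 ^ 2 * 5 by exact hd) with h | h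
  · exact Or.inl ((Nat.prime_dvd_prime_iff_eq hq Nat.prime_two).1 (hq.dvd_of_dvd_pow h))
  · exact Or.inr ((Nat.prime_dvd_prime_iff_eq hq (by norm_num)).1 h)

theorem bnd17 : bnd (D 17).L = 11 := by decide +kernel
theorem bnd18 : bnd (D 18).L = 24 := by decide +kernel
theorem bnd20 : bnd (D 20).L = 20 := by decide +kernel

theorem card17 : Nat.card (GG (hw (X 17))) ≤ 22 := by
  have := card_GG_X 17
  rwa [bnd17] at this

theorem card20 : Nat.card (GG (hw (X 20))) ≤ 40 := by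
  have := card_GG_X 20
  rwa [bnd20] at this

theorem ck17 : 22 ≤ Nat.card (CK' (hw (X 17))) := by
  have h1 := Subgroup.card_le_of_le (zp_le_CK' (mem_X 17))
  rwa [Nat.card_zpowers, ord17] at h1

theorem ck18 : 24 ≤ Nat.card (CK' (hw (X 18))) :=
  two_le (mem_X 18) ord18 (pow_ne_τ (by decide +kernel) (by decide +kernel))

theorem ck20 : 40 ≤ Nat.card (CK' (hw (X 20))) :=
  two_le (mem_X 20) ord20 (pow_ne_τ (by decide +kernel) (by decide +kernel))

/-- an odd element centralizing `X 18` modulo `τ` -/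
def h18 : List ℕ := [0, 3, 0, 2, 1, 2, 4, 1, 3, 1, 3, 1, 2, 1]

theorem card18 : Nat.card (GG (hw (X 18)) ⊓ K : Subgroup H0) ≤ 24 := by
  have h1 := card_GG_X 18
  rw [bnd18] at h1
  have h2 := inf_le h1 ⟨hw h18, mem_GG.2 (Or.inr ?_), not_mem_K_of_par (by decide) (by decide)⟩
  · omega
  · rw [← hw_iw, ← hw_append, ← hw_append, ← hw_τ, ← hw_append]
    exact hw_eq (by decide +kernel)

/-- **good elements** -/
theorem good_X {i : Fin 21} (hi : i ∈ ([0, 2, 3, 7, 8, 9, 11, 12, 15, 17, 18, 19, 20] : List (Fin 21))) {c : H0} (hc : c ∈ K) :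
    c * hw (X i) * c⁻¹ ≠ τ * hw (X i) := by
  simp only [List.mem_cons, List.not_mem_nil, or_false] at hi
  rcases hi with rfl | rfl | rfl | rfl | rfl | rfl | rfl | rfl | rfl | rfl | rfl | rfl | rfl
  · exact good_odd (m := 1) (by decide) (Or.inl (pow_eq (by decide +kernel))) c
  · exact good_tr (v := 0) (v' := 128) (by decide +kernel) (by decide +kernel) (by decide +kernel) (by norm_num) c
  · exact good_odd (m := 3) (by decide) (Or.inl (pow_eq (by decide +kernel))) c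
  · exact good_odd (m := 5) (by decide) (Or.inl (pow_eq (by decide +kernel))) c
  · exact good_odd (m := 5) (by decide) (Or.inr (pow_eq_τ (by decide +kernel))) c
  · exact good_odd (m := 5) (by decide) (Or.inl (pow_eq (by decide +kernel))) c
  · exact good_tr (v := 8) (v' := 0) (by decide +kernel) (by decide +kernel) (by decide +kernel) (by norm_num) c
  · exact good_odd (m := 7) (by decide) (Or.inl (pow_eq (by decide +kernel))) c
  · exact good_tr (v := 8) (v' := 0) (by decide +kernel) (by decide +kernel) (by decide +kernel) (by norm_num) c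
  · exact good_odd (m := 11) (by decide) (Or.inr (pow_eq_τ (by decide +kernel))) c
  · exact good_cent ck18 (by have := card18; omega) hc
  · exact good_odd (m := 15) (by decide) (Or.inr (pow_eq_τ (by decide +kernel))) c
  · exact good_cent ck20 (by
      have h1 := card20
      have h2 := Subgroup.card_le_of_le (inf_le_left : GG (hw (X 20)) ⊓ K ≤ GG (hw (X 20)))
      omega) hc

/-! ### separation -/

theorem inv_X (i : Fin 21) : inv4v adjA (φ (hw (X i))) = (D i).I := by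
  have h := chk_all i
  simp only [Cls.chk, Bool.and_eq_true] at h
  obtain ⟨-, -, h4⟩ := h
  split at h4
  · next v2 v1 w2 w1 he =>
    rw [he]
    exact inv4v_of (acts i) h4
  · exact absurd h4 (by simp)

theorem inj_I : ∀ i j : Fin 21, (D i).I = (D j).I → i = j := by
  decide +kernel

theorem eq_of_conj {i j : Fin 21} {c : H0} (h : φ (c * hw (X i) * c⁻¹) = φ (hw (X j))) : i = j := by
  apply inj_I
  rw [← inv_X, ← inv_X]
  refine inv4v_conj (c := φ c) (Cfsg.Agent.HN.HS100.range_le ⟨c, rfl⟩) ?_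
  rw [← h, map_mul, map_mul, map_inv, inv_mul_cancel_right]

/-- the classes -/
def idx : Fin 15 → Fin 21 := ![0, 3, 7, 8, 9, 12, 17, 17, 19, 2, 11, 15, 20, 20, 18]

/-- the conjugators -/
def cz (i : Fin 15) : H0 := if i = 7 ∨ i = 13 then gz else 1

theorem idx_good : ∀ i, idx i ∈ ([0, 2, 3, 7, 8, 9, 11, 12, 15, 17, 18, 19, 20] : List (Fin 21)) := by decide

theorem idx_inj : ∀ i j : Fin 15, i ≠ j → idx i = idx j →
    (idx i = 17 ∨ idx i = 20) ∧ ((i = 7 ∨ i = 13) ∧ ¬ (j = 7 ∨ j = 13) ∨ ¬ (i = 7 ∨ i = 13) ∧ (j = 7 ∨ j = 13)) := by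
  decide

theorem gz_not_mem : gz ∉ K := by
  rw [← Cfsg.Agent.HN.P1408.hw_z]
  exact not_mem_K_of_par (by decide) (by decide)

/-- the 15 elements -/
def F (i : Fin 15) : K := ⟨cz i * hw (X (idx i)) * (cz i)⁻¹, Subgroup.Normal.conj_mem inferInstance _ (mem_X _) _⟩

/-- the central element -/
def τK : K := ⟨τ, τ_mem_K⟩

theorem F_good (i : Fin 15) (h : K) : h * F i * h⁻¹ ≠ τK * F i := by
  intro e
  have e1 : (h : H0) * (cz i * hw (X (idx i)) * (cz i)⁻¹) * (h : H0)⁻¹ = τ * (cz i * hw (X (idx i)) * (cz i)⁻¹) :=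
    congrArg Subtype.val e
  have hm : (cz i)⁻¹ * (h : H0) * cz i ∈ K := by
    have := Subgroup.Normal.conj_mem (inferInstance : K.Normal) _ h.2 (cz i)⁻¹
    rwa [inv_inv] at this
  apply good_X (idx_good i) hm
  have e2 : (cz i)⁻¹ * (h : H0) * cz i * hw (X (idx i)) * ((cz i)⁻¹ * (h : H0) * cz i)⁻¹ =
      (cz i)⁻¹ * ((h : H0) * (cz i * hw (X (idx i)) * (cz i)⁻¹) * (h : H0)⁻¹) * cz i := by group
  rw [e2, e1, ← mul_assoc, τ_comm]
  group

theorem F_sep_aux {i j : Fin 15} (hij : i ≠ j) (h : K) (e : φ ((h * F i * h⁻¹ : K) : H0) = φ (F j : H0)) : False := by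
  have e1 : φ ((h : H0) * (cz i * hw (X (idx i)) * (cz i)⁻¹) * (h : H0)⁻¹) = φ (cz j * hw (X (idx j)) * (cz j)⁻¹) := e
  have e2 : φ (((cz j)⁻¹ * h * cz i) * hw (X (idx i)) * ((cz j)⁻¹ * h * cz i)⁻¹) = φ (hw (X (idx j))) := by
    have e3 : ((cz j)⁻¹ * h * cz i) * hw (X (idx i)) * ((cz j)⁻¹ * h * cz i)⁻¹ =
        (cz j)⁻¹ * ((h : H0) * (cz i * hw (X (idx i)) * (cz i)⁻¹) * (h : H0)⁻¹) * cz j := by group
    rw [e3, map_mul, map_mul, e1, ← map_mul, ← map_mul]
    congr 1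
    group
  have h1 := eq_of_conj e2
  obtain ⟨h2, h3⟩ := idx_inj i j hij h1
  rw [← h1] at e2
  have h4 : (cz j)⁻¹ * h * cz i ∈ GG (hw (X (idx i))) := by
    rw [mem_GG, ← φ_eq_iff]
    exact e2
  have h5 : (cz j)⁻¹ * h * cz i ∈ K := by
    rcases h2 with h2 | h2
    · rw [h2] at h4
      exact mem_K_of_GG ck17 card17 (by norm_num) h4
    · rw [h2] at h4
      exact mem_K_of_GG ck20 card20 (by norm_num) h4
  apply gz_not_mem
  rcases h3 with ⟨h3, h3'⟩ | ⟨h3, h3'⟩
  · rw [cz, if_neg h3', cz, if_pos h3, inv_one, one_mul] at h5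
    exact (Subgroup.mul_mem_cancel_left K h.2).1 h5
  · rw [cz, if_pos h3', cz, if_neg h3, mul_one] at h5
    exact (inv_mem_iff (S := Subgroup H0)).1 ((Subgroup.mul_mem_cancel_right K h.2).1 h5)

theorem F_sep (i j : Fin 15) (hij : i ≠ j) (h : K) : h * F i * h⁻¹ ≠ F j ∧ h * F i * h⁻¹ ≠ τK * F j := by
  constructor
  · intro e
    exact F_sep_aux hij h (by rw [e])
  · intro e
    refine F_sep_aux hij h ?_
    rw [e]
    change φ (τ * (F j : H0)) = _
    rw [map_mul, Cfsg.Agent.HN.H0Basic.φ_τ, one_mul]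

end Cfsg.Agent.H382.RIM.HSG
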